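import Groth.Prelude.Def_ModelsG
import Groth.Agent.Dix.MinusDisjoint490
import Groth.Agent.Dix.CastMain

/-!
# (-1)-curves on proper schemes over a discrete valuation ring and exceptional vertical curves (helper53)
-/

set_option autoImplicit false
universe u

open CategoryTheory CategoryTheory.Limits AlgebraicGeometry

namespace Groth.Agent.Models.H53.NoMinus

open Groth.Agent.Dix.MinusCurve Groth.Agent.Dix.P1Van490 Groth.Agent.Grpsch.PicGrp

/-- A (-1)-curve is an exceptional curve of the first kind. -/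
theorem isExcCurve {X : Scheme.{u}} (E : MinusCurve X) : _root_.Models.IsExcCurve E.ι := by
  have h := Groth.Agent.Dix.CastMain.pull_idc_eq E.ι E.eff E.deg
  rw [Groth.Agent.Dix.CastPic.idc, pull_mk, Groth.Agent.Dix.CastPic.o, mk_eq_iff] at h
  obtain ⟨e⟩ := h
  refine ⟨E.eff, E.k, E.field, Iso.refl _, ⟨?_⟩⟩
  exact (Scheme.Modules.pullbackCongr (Category.id_comp E.ι)).app _ ≪≫ e

section Residue

variable {R : Type u} [CommRing R] [IsDomain R] [IsDiscreteValuationRing R]

omit [IsDomain R] [IsDiscreteValuationRing R] in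
/-- A reduced scheme over a local ring, lying over the closed point, lies over the residue field. -/
theorem exists_residue_of_reduced [IsLocalRing R] {Y : Scheme.{u}} [IsReduced Y] (f : Y ⟶ Spec (CommRingCat.of R))
    (hf : ∀ t ∈ IsLocalRing.maximalIdeal R, ∀ y : Y, t ∈ (f y).asIdeal) :
    ∃ q : Y ⟶ Spec (CommRingCat.of (IsLocalRing.ResidueField R)),
      q ≫ Spec.map (CommRingCat.ofHom (IsLocalRing.residue R)) = f := by
  let φ : R →+* Γ(Y, ⊤) := f.appTop.hom.comp (Scheme.ΓSpecIso (CommRingCat.of R)).inv.hom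
  have hφ : ∀ t ∈ IsLocalRing.maximalIdeal R, φ t = 0 := by
    intro t ht
    have h1 : Y.basicOpen (Groth.Agent.Dix.MinusDisjoint490.gfn f t) = ⊥ := by
      rw [eq_bot_iff]
      intro y hy
      rw [Groth.Agent.Dix.MinusDisjoint490.mem_basicOpen_gfn] at hy
      exact hy (hf t ht y)
    exact (basicOpen_eq_bot_iff _).1 h1
  let ψ : IsLocalRing.ResidueField R →+* Γ(Y, ⊤) := Ideal.Quotient.lift _ φ hφ
  have hψ : ψ.comp (IsLocalRing.residue R) = φ := by
    ext t
    rfl
  refine ⟨Y.toSpecΓ ≫ Spec.map (CommRingCat.ofHom ψ), ?_⟩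
  have h3 : Spec.map (CommRingCat.ofHom ψ) ≫ Spec.map (CommRingCat.ofHom (IsLocalRing.residue R)) =
      Spec.map (CommRingCat.ofHom φ) := by
    rw [← Spec.map_comp, ← CommRingCat.ofHom_comp, hψ]
  have h2 : CommRingCat.ofHom φ = (Scheme.ΓSpecIso (CommRingCat.of R)).inv ≫ f.appTop := rfl
  rw [Category.assoc, h3, h2, Spec.map_comp, ← Scheme.toSpecΓ_naturality_assoc,
    toSpecΓ_SpecMap_ΓSpecIso_inv, Category.comp_id]

/-- A projective line proper over a discrete valuation ring lies over the residue field. -/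
theorem exists_residue {k : Type u} [Field k] (f : P1 k ⟶ Spec (CommRingCat.of R)) [IsProper f] :
    ∃ q : P1 k ⟶ Spec (CommRingCat.of (IsLocalRing.ResidueField R)),
      q ≫ Spec.map (CommRingCat.ofHom (IsLocalRing.residue R)) = f :=
  exists_residue_of_reduced f fun _ ht y => Groth.Agent.Dix.MinusDisjoint490.mem_asIdeal_of_isProper f ht y

/-- The vertical prime divisor of a (-1)-curve. -/
theorem exists_vertComp {X : Over (Spec (CommRingCat.of R))} [IsProper X.hom] (E : MinusCurve X.left) :
    ∃ Γ : ArSurf.VertComp R X, _root_.Models.IsExcCurve Γ.ι ∧ Set.range Γ.ι = E.support := by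
  obtain ⟨q, hq⟩ := exists_residue (E.ι ≫ X.hom)
  exact ⟨{ curve := Over.mk q
           ι := E.ι
           isClosedImmersion := E.isClosedImmersion
           isIntegral := inferInstanceAs (IsIntegral (CohB1.ProjSpace 1 E.k))
           dim_eq := topologicalKrullDim_P1 E.k
           w := hq.symm }, isExcCurve E, rfl⟩

/-- A proper scheme over a discrete valuation ring without exceptional vertical prime divisors has no (-1)-curves. -/
theorem isEmpty_minusCurve {X : Over (Spec (CommRingCat.of R))} [IsProper X.hom]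
    (h : ∀ Γ : ArSurf.VertComp R X, ¬ _root_.Models.IsExcCurve Γ.ι) : IsEmpty (MinusCurve X.left) :=
  ⟨fun E => by
    obtain ⟨Γ, h1, -⟩ := exists_vertComp E
    exact h Γ h1⟩

end Residue

end Groth.Agent.Models.H53.NoMinus
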