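import Groth.Agent.Models.H53.NoMinus
import Groth.Agent.Dix.MinusExists

/-!
# Chains of point blow-ups are contraction sequences (helper53)
-/

set_option autoImplicit false
universe u

open CategoryTheory CategoryTheory.Limits AlgebraicGeometry

namespace Groth.Agent.Models.H53.Seq

open Groth.Agent.Dix.MinusCurve Groth.Agent.Ega4B.RegChain Groth.Agent.Dix.PointIdeal

/-- An exceptional curve of the first kind gives a (-1)-curve with the same support. -/
theorem exists_minusCurve {E X : Scheme.{u}} (ι : E ⟶ X) [IsClosedImmersion ι]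
    (h : _root_.Models.IsExcCurve ι) : ∃ E' : MinusCurve X, E'.support = Set.range ι ∧ E'.ι.ker = ι.ker := by
  obtain ⟨heff, k, hk, e, ⟨φ⟩⟩ := h
  have hker : (e.hom ≫ ι).ker = ι.ker := by
    apply le_antisymm
    · conv_rhs => rw [← e.inv_hom_id_assoc ι]
      exact e.inv.le_ker_comp (e.hom ≫ ι)
    · exact e.hom.le_ker_comp ι
  refine ⟨⟨k, e.hom ≫ ι, hker ▸ heff, ?_⟩, ?_, hker⟩
  · rw [hker, Groth.Agent.Dix.MinusExists.curveDeg_congr φ]
    exact Groth.Agent.Dix.Cast2.wp2_deg k 1
  · change Set.range (e.hom ≫ ι) = Set.range ι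
    ext x
    constructor
    · rintro ⟨y, rfl⟩
      exact ⟨e.hom y, rfl⟩
    · rintro ⟨y, rfl⟩
      refine ⟨e.inv y, ?_⟩
      rw [← Scheme.Hom.comp_apply, e.inv_hom_id_assoc]

variable {R : Type u} [CommRing R]

/-- The blow-up of a closed point of a regular proper surface is the contraction of an exceptional curve of the first
kind. -/
theorem exists_contraction [IsNoetherianRing R] {Z X : Over (Spec (CommRingCat.of R))} {π : Z ⟶ X} {x : X.left}
    (h : IsRegBlow π x) : ∃ (E : Scheme.{u}) (ι : E ⟶ Z.left), IsClosedImmersion ι ∧ _root_.Models.IsExcCurve ι ∧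
      _root_.Models.IsContractionOf ι π.left ∧ Set.range ι = π.left ⁻¹' {x} := by
  have hreg := h.target.regular x
  obtain ⟨E, hE, -⟩ := Groth.Agent.Dix.MinusExists.exists_minusCurve_blowUp π.left x h.isClosed h.dim_eq h.isBlowUp
  refine ⟨_, E.ι, E.isClosedImmersion, NoMinus.isExcCurve E, ?_, hE⟩
  have hp := Groth.Agent.Dix.RChain.isProper_left h.source h.target π
  have hnoeth := Groth.Agent.Dix.RChain.isNoetherian h.target
  refine ⟨hnoeth, hp, x, h.isClosed, ?_, hreg, h.dim_eq, h.isBlowUp⟩
  have h1 : ∀ e : CohB1.ProjSpace 1 E.k, (E.ι ≫ π.left) e = x := by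
    intro e
    have h2 : E.ι e ∈ E.support := ⟨e, rfl⟩
    rw [hE] at h2
    exact h2
  apply Set.eq_singleton_iff_unique_mem.2
  refine ⟨⟨genericPoint (CohB1.ProjSpace 1 E.k), h1 _⟩, ?_⟩
  rintro _ ⟨e, rfl⟩
  exact h1 e

/-- A chain of point blow-ups of regular proper surfaces is a finite composite of contractions of exceptional curves
of the first kind. -/
theorem isContractionSeq [IsNoetherianRing R] {Z X : Over (Spec (CommRingCat.of R))} {r : Z ⟶ X} {n : ℕ}
    (h : RChain r n) : _root_.Models.IsContractionSeq r.left := by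
  induction h with
  | iso e he =>
    have := isIso_left e
    exact _root_.Models.IsContractionSeq.iso (asIso e.left)
  | step π r n z hπ hr ih =>
    obtain ⟨E, ι, h1, h2, h3, -⟩ := exists_contraction hπ
    exact _root_.Models.IsContractionSeq.step ι π.left r.left h1 h2 h3 ih

end Groth.Agent.Models.H53.Seq
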